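import Cfsg.Agent.Lib.Helper41.CS3.GoodDefs
import Cfsg.Agent.Lib.Helper24.CS3.Basics
import Cfsg.Agent.Lib.Helper71.CS3.Basics

/-!
# CS3 (S4284), part GOOD, package [HY].
-/

set_option autoImplicit false

namespace Cfsg.Agent.Lib.Helper51.CS3

open Cfsg.Agent.Lib.Helper81.CS3 Cfsg.Agent.Lib.Helper41.CS3

universe u

/-- [HY] if `C(a)` is abelian of index `m` and `y` is an `s`-element of class size `m n`
(two primes `s ≠ s2` dividing `m`), then `C(y)` is abelian and is the centralizer of each of its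
non-central elements. -/
theorem pkgHy_of (hNC : PkgNC.{u}) (hG4c : PkgG4c.{u}) (hSplit : PkgSplit.{u}) : PkgHy.{u} := by
  intro G _ _ m n hyp s s2 a y hs hsm hs2 hs2m hne hia hab hy hiy
  have hm1 : 1 < m := hyp.2.1
  have hn1 : 1 < n := hyp.2.2.1
  have hmem : ∀ {g x : G}, g ∈ Cn x ↔ g * x = x * g := Subgroup.mem_centralizer_singleton_iff
  -- (*) an element commuting with an element of class size `m` has class size `≠ m n`
  have hstar : ∀ w v : G, w * v = v * w → ix v = m → ix w ≠ m * n := by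
    intro w v hwv hiv hiw
    obtain ⟨g, hg⟩ := hG4c m n hyp a hia hab v hiv
    have hconj : ∀ x : G, x ∈ Cn (g * a * g⁻¹) → g⁻¹ * x * g ∈ Cn a := by
      intro x hx
      rw [hmem] at hx ⊢
      calc g⁻¹ * x * g * a = g⁻¹ * (x * (g * a * g⁻¹)) * g := by group
        _ = g⁻¹ * ((g * a * g⁻¹) * x) * g := by rw [hx]
        _ = a * (g⁻¹ * x * g) := by group
    have habv : Ab (Cn v) := by
      rw [hg]
      intro x hx z hz
      have h1 := hab _ (hconj x hx) _ (hconj z hz)
      calc x * z = g * ((g⁻¹ * x * g) * (g⁻¹ * z * g)) * g⁻¹ := by group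
        _ = g * ((g⁻¹ * z * g) * (g⁻¹ * x * g)) * g⁻¹ := by rw [h1]
        _ = z * x := by group
    have hwv' : w ∈ Cn v := hmem.mpr hwv
    have hle : Cn v ≤ Cn w := by
      intro x hx
      rw [hmem]
      exact habv x hx w hwv'
    have hdvd : ix w ∣ ix v := Subgroup.index_dvd_of_le hle
    rw [hiw, hiv] at hdvd
    have h2 : m * n ≤ m := Nat.le_of_dvd (by omega) hdvd
    nlinarith
  obtain ⟨u, huy, hu, hunc⟩ := hNC m n hyp s2 hs2 hs2m y
  have huy' : u * y = y * u := hmem.mp huy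
  have hiu : ix u = m * n := by
    rcases Cfsg.Agent.Lib.Helper24.CS3.index_mem hyp u with h | h | h
    · exact absurd ((Cfsg.Agent.Lib.Helper71.CS3.idx_eq_one_iff u).mp h) hunc
    · exact absurd hiy (hstar y u huy'.symm h)
    · exact h
  have hmax : ∀ g : G, (Subgroup.centralizer ({g} : Set G)).index ≤ m * n :=
    Cfsg.Agent.Lib.Helper24.CS3.index_le hyp
  obtain ⟨ky, hky⟩ := hy
  obtain ⟨ku, hku⟩ := hu
  have hcop_su : ∀ i j : ℕ, (s ^ i).Coprime (s2 ^ j) := fun i j =>
    Nat.Coprime.pow i j ((Nat.coprime_primes hs hs2).mpr (Ne.symm hne))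
  have hyu : Cn y ≤ Cn u :=
    Cfsg.Agent.Lib.Helper24.CS3.cent_le_of_max hmax y u hiy (show Commute y u from huy'.symm)
      (by rw [hky, hku]; exact hcop_su ky ku)
  have habY : Ab (Cn y) := by
    intro g hg z hz
    obtain ⟨g1, g2, hg12, ⟨k1, hk1⟩, hg2cop, ⟨e1, he1⟩, ⟨e2, he2⟩⟩ := hSplit s hs g
    have hg1y : g1 ∈ Cn y := by
      rw [he1]
      exact pow_mem hg e1
    have hg2y : g2 ∈ Cn y := by
      rw [he2]
      exact pow_mem hg e2
    have h2 : Cn y ≤ Cn g2 :=
      Cfsg.Agent.Lib.Helper24.CS3.cent_le_of_max hmax y g2 hiy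
        (show Commute y g2 from (hmem.mp hg2y).symm)
        (by rw [hky]; exact Nat.Coprime.pow_left ky hg2cop.symm)
    have hg1u : g1 ∈ Cn u := hyu hg1y
    have h1 : Cn u ≤ Cn g1 :=
      Cfsg.Agent.Lib.Helper24.CS3.cent_le_of_max hmax u g1 hiu
        (show Commute u g1 from (hmem.mp hg1u).symm)
        (by rw [hku, hk1]; exact (hcop_su k1 ku).symm)
    have hz2 := hmem.mp (h2 hz)
    have hz1 := hmem.mp (h1 (hyu hz))
    rw [hg12]
    calc g1 * g2 * z = g1 * (g2 * z) := by group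
      _ = g1 * (z * g2) := by rw [hz2]
      _ = (g1 * z) * g2 := by group
      _ = (z * g1) * g2 := by rw [hz1]
      _ = z * (g1 * g2) := by group
  refine ⟨habY, ?_⟩
  intro v hv hvnc
  have hle : Cn y ≤ Cn v := by
    intro x hx
    rw [hmem]
    exact habY x hx v hv
  have hiv : ix v = m * n := by
    rcases Cfsg.Agent.Lib.Helper24.CS3.index_mem hyp v with h | h | h
    · exact absurd ((Cfsg.Agent.Lib.Helper71.CS3.idx_eq_one_iff v).mp h) hvnc
    · exact absurd hiy (hstar y v (hmem.mp hv).symm h)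
    · exact h
  symm
  apply le_antisymm hle
  have h4 := Subgroup.relIndex_mul_index hle
  rw [show (Cn v).index = m * n from hiv, show (Cn y).index = m * n from hiy] at h4
  have h5 : (Cn y).relIndex (Cn v) = 1 := by
    have hpos : 0 < m * n := by positivity
    exact Nat.eq_of_mul_eq_mul_right hpos (by rw [h4, one_mul])
  exact Subgroup.relIndex_eq_one.mp h5

end Cfsg.Agent.Lib.Helper51.CS3
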