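import Cfsg.Agent.Lib.Helper41.CS3.GoodDefs
import Cfsg.Agent.Lib.Helper24.CS3.Basics
import Cfsg.Agent.Lib.Helper71.CS3.Basics
import Cfsg.Agent.Lib.Helper71.CS3.Basics5

/-!
# CS3 (S4284), part GOOD, package [S5].
-/

set_option autoImplicit false

namespace Cfsg.Agent.Lib.Helper51.CS3

open Cfsg.Agent.Lib.Helper81.CS3 Cfsg.Agent.Lib.Helper41.CS3

universe u

/-- [S5] Step 5: every element is conjugate into `C(a)`. -/
theorem pkgS5_of (hSylow : PkgSylow.{u}) (hPrim : PkgPrim.{u}) (hAt : PkgAt.{u}) :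
    PkgS5.{u} := by
  intro G _ _ m n hyp s t a A T hgood hconf h4 x
  have hm1 : 1 < m := hyp.2.1
  have hn1 : 1 < n := hyp.2.2.1
  have hmem : ∀ {g x : G}, g ∈ Cn x ↔ g * x = x * g := Subgroup.mem_centralizer_singleton_iff
  have htp := hconf.tp
  have hTa : T ≤ Cn a := by
    rw [← hconf.sup]
    exact le_sup_right
  rcases hPrim t htp x with ⟨r, u, hr, hrt, hru, hunc, k, hk⟩ | ⟨xt, z, hxz, hxt, hz⟩
  · obtain ⟨j, hj⟩ := hru
    have hr_card : r ∣ Nat.card G := by
      have hj0 : j ≠ 0 := by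
        rintro rfl
        rw [pow_zero, orderOf_eq_one_iff] at hj
        exact hunc (hj ▸ Subgroup.one_mem _)
      have h1 : r ∣ orderOf u := by
        rw [hj]
        exact dvd_pow_self r hj0
      exact h1.trans (orderOf_dvd_natCard u)
    have hrmn := Cfsg.Agent.Lib.Helper71.CS3.prime_dvd_mul hyp hr hr_card
    obtain ⟨kn, hkn⟩ := hconf.tn
    have hrn : ¬ r ∣ n := by
      intro hd
      rw [hkn] at hd
      exact hrt ((Nat.prime_dvd_prime_iff_eq hr htp).mp (hr.dvd_of_dvd_pow hd))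
    have hrm : r ∣ m := (hr.dvd_mul.mp hrmn).resolve_right hrn
    have hiu : ix u = m := by
      rcases Cfsg.Agent.Lib.Helper24.CS3.index_mem hyp u with h | h | h
      · exact absurd ((Cfsg.Agent.Lib.Helper71.CS3.idx_eq_one_iff u).mp h) hunc
      · exact h
      · exact absurd h (h4 r u hr hrm ⟨j, hj⟩)
    have htm : ¬ t ∣ m := by
      intro hd
      have hkn0 : kn ≠ 0 := by
        rintro rfl
        rw [pow_zero] at hkn
        omega
      have htn : t ∣ n := by
        rw [hkn]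
        exact dvd_pow_self t hkn0
      have h1 : t ∣ Nat.gcd m n := Nat.dvd_gcd hd htn
      rw [hyp.2.2.2.1.gcd_eq_one] at h1
      exact htp.one_lt.ne' (Nat.dvd_one.mp h1)
    obtain ⟨g, hg⟩ := hSylow t htp T (Cn u) hconf.pT
      (by rw [show (Cn u).index = m from hiu]; exact htm)
    have hu'T : g⁻¹ * u * g ∈ Subgroup.centralizer (T : Set G) := by
      rw [Subgroup.mem_centralizer_iff]
      intro τ hτ
      have h1 := hmem.mp (hg τ hτ)
      calc τ * (g⁻¹ * u * g) = g⁻¹ * ((g * τ * g⁻¹) * u) * g := by group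
        _ = g⁻¹ * (u * (g * τ * g⁻¹)) * g := by rw [h1]
        _ = g⁻¹ * u * g * τ := by group
    have hu'a : g⁻¹ * u * g ∈ Cn a := hconf.cent hu'T
    have hord : orderOf (g⁻¹ * u * g) = orderOf u := by
      have h1 := (MulAut.conj g⁻¹).orderOf_eq u
      rw [MulAut.conj_apply, inv_inv] at h1
      exact h1
    have hu'prim : Prim r (g⁻¹ * u * g) := ⟨j, by rw [hord, hj]⟩
    have hle : Cn a ≤ Cn (g⁻¹ * u * g) := hAt n t a A T hconf r _ hr hrt hu'prim hu'a
    have hiu' : (Cn (g⁻¹ * u * g)).index = m := by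
      have h1 := Cfsg.Agent.Lib.Helper71.CS3.idx_mulEquiv (MulAut.conj g⁻¹) u
      rw [MulAut.conj_apply, inv_inv] at h1
      exact h1.trans hiu
    have heq : Cn (g⁻¹ * u * g) ≤ Cn a := by
      have h4' := Subgroup.relIndex_mul_index hle
      rw [hiu', show (Cn a).index = m from hgood.ixa] at h4'
      have h5 : (Cn a).relIndex (Cn (g⁻¹ * u * g)) = 1 :=
        Nat.eq_of_mul_eq_mul_right (by omega : 0 < m) (by rw [h4', one_mul])
      exact Subgroup.relIndex_eq_one.mp h5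
    refine ⟨g, heq ?_⟩
    rw [hmem]
    have hxu : x * u = u * x := by
      rw [hk, ← pow_succ', ← pow_succ]
    calc g⁻¹ * x * g * (g⁻¹ * u * g) = g⁻¹ * (x * u) * g := by group
      _ = g⁻¹ * (u * x) * g := by rw [hxu]
      _ = g⁻¹ * u * g * (g⁻¹ * x * g) := by group
  · obtain ⟨j, hj⟩ := hxt
    have hP : IsPGroup t (Subgroup.zpowers xt) :=
      IsPGroup.of_card (n := j) (by rw [Nat.card_zpowers, hj])
    obtain ⟨g, hg⟩ := hSylow t htp (Subgroup.zpowers xt) T hP hconf.sylT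
    refine ⟨g⁻¹, ?_⟩
    rw [inv_inv, hxz]
    have h1 : g * xt * g⁻¹ ∈ Cn a := hTa (hg xt (Subgroup.mem_zpowers xt))
    have h2 : z ∈ Cn a := by
      rw [hmem]
      exact (Subgroup.mem_center_iff.mp hz a).symm
    have h3 : g * (xt * z) * g⁻¹ = (g * xt * g⁻¹) * z := by
      have hzg := Subgroup.mem_center_iff.mp hz g⁻¹
      calc g * (xt * z) * g⁻¹ = g * xt * (z * g⁻¹) := by group
        _ = g * xt * (g⁻¹ * z) := by rw [hzg]
        _ = (g * xt * g⁻¹) * z := by group
    rw [h3]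
    exact mul_mem h1 h2

end Cfsg.Agent.Lib.Helper51.CS3
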