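import Cfsg.Agent.Lib.Helper81.CS3.NGDefs
import Cfsg.Agent.Lib.Helper71.CS3.Basics

/-!
# CS3 (S4284), part NG, package [TWO]: `m` has at most one prime divisor.
-/

set_option autoImplicit false

namespace Cfsg.Agent.Lib.Helper51.CS3

open Cfsg.Agent.Lib.Helper81.CS3

open scoped Pointwise

universe u

variable {G : Type u} [Group G]

theorem two_orderOf_conj (v x : G) : orderOf (v * x * v⁻¹) = orderOf x :=
  (MulAut.conj v).orderOf_eq x

theorem two_conj_mem_center {v x : G} (h : v * x * v⁻¹ ∈ Subgroup.center G) :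
    x ∈ Subgroup.center G := by
  have := (inferInstance : (Subgroup.center G).Normal).conj_mem _ h v⁻¹
  simpa [mul_assoc] using this

theorem two_card_mul_relIndex {H K : Subgroup G} (h : H ≤ K) :
    Nat.card H * H.relIndex K = Nat.card K := by
  have h1 := Subgroup.card_mul_index (H.subgroupOf K)
  rw [Nat.card_congr (Subgroup.subgroupOfEquivOfLe h).toEquiv] at h1
  exact h1

/-- an element commuting with a whole Sylow `s`-subgroup (`s ∣ m`) is central. -/
theorem two_central_of_sylow [Finite G] {m n : ℕ} (hyp : Hyp G m n) {s : ℕ} [Fact s.Prime]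
    (hs : s ∣ m) (S : Sylow s G) {u : G} (hc : ∀ y ∈ S, Commute y u) :
    u ∈ Subgroup.center G := by
  rw [← Cfsg.Agent.Lib.Helper71.CS3.idx_eq_one_iff]
  have hle : (S : Subgroup G) ≤ Subgroup.centralizer ({u} : Set G) := by
    intro y hy
    rw [Subgroup.mem_centralizer_singleton_iff]
    exact (hc y hy).eq
  have hnd : ¬ s ∣ (Subgroup.centralizer ({u} : Set G)).index := fun h =>
    S.not_dvd_index (h.trans (Subgroup.index_dvd_of_le hle))
  rcases Cfsg.Agent.Lib.Helper71.CS3.idx_cases hyp u with h | h | h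
  · exact h
  · exfalso
    apply hnd
    rw [h]
    exact hs
  · exfalso
    apply hnd
    rw [h]
    exact hs.mul_right n

/-- The context of [TWO] at a fixed group. -/
structure TwoCtx (G : Type u) [Group G] (m n : ℕ) : Prop where
  hyp : Hyp G m n
  syl : ∀ (s : ℕ), s.Prime → s ∣ m → ∀ x : G, ∃ b : G, PM m s b ∧ Commute b x
  str : ∀ (s : ℕ) (b : G), PM m s b →
    idx b = m * n ∧
    ∃ Sb Ab : Subgroup G,
      (∀ u : G, u ∈ Sb ↔ (Commute u b ∧ ∃ k : ℕ, orderOf u = s ^ k)) ∧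
      (∀ u : G, u ∈ Ab ↔ (Commute u b ∧ (orderOf u).Coprime s)) ∧
      (∀ u ∈ Ab, ∀ g : G, Commute g b → Commute g u) ∧
      Nat.card Sb * Nat.card Ab * (m * n) = Nat.card G ∧
      (∃ j : ℕ, Nat.card Sb = s ^ j) ∧ (Nat.card Ab).Coprime s
  sq : ∀ (s : ℕ), s.Prime → s ∣ m → ¬ s ^ 2 ∣ m
  ab : ∀ (s : ℕ) (b : G), PM m s b → ¬ TypeII m n s b → AbC b
  stepA : ∀ w : G, idx w = m * n → AbC w →
    ∃ (x : G) (r k : ℕ), r.Prime ∧ ¬ r ∣ m ∧ orderOf x = r ^ k ∧ Commute x w ∧ idx x = m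
  stepB : ∀ w : G, idx w = m * n → AbC w →
    ∀ x g : G, Commute x w → idx x = m → Commute (g * x * g⁻¹) w
  hex : ∀ q : ℕ, q.Prime → q ∣ m → ∃ q' : ℕ, q'.Prime ∧ q' ∣ m ∧ q' ≠ q

namespace TwoCtx

variable {m n : ℕ}

theorem idx_pm (C : TwoCtx G m n) {q : ℕ} {b : G} (hb : PM m q b) : idx b = m * n :=
  (C.str q b hb).1

theorem abc (C : TwoCtx G m n) {q : ℕ} {b : G} (hb : PM m q b) : AbC b := by
  obtain ⟨q', hq', hq'm, hne⟩ := C.hex q hb.1 hb.2.1
  obtain ⟨b2, hb2, hcomm⟩ := C.syl q' hq' hq'm b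
  apply C.ab q b hb
  intro hII
  apply hII b2 hcomm ?_ (C.idx_pm hb2)
  obtain ⟨k, hk⟩ := hb2.2.2.1
  rw [hk]
  exact Nat.Coprime.pow_left k ((Nat.coprime_primes hq' hb.1).mpr hne)

theorem comm_iff (C : TwoCtx G m n) {q q' : ℕ} {b b' : G} (hb : PM m q b) (hb' : PM m q' b')
    (hc : Commute b b') (y : G) : Commute y b ↔ Commute y b' :=
  ⟨fun h => C.abc hb y b' h hc.symm, fun h => C.abc hb' y b h hc⟩

/-- the order of `S_b` and the `q`-part of `|G|`. -/
theorem data [Finite G] (C : TwoCtx G m n) {q : ℕ} {b : G} (hb : PM m q b) (B : Subgroup G)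
    (hB : ∀ u : G, u ∈ B ↔ (Commute u b ∧ ∃ k : ℕ, orderOf u = q ^ k)) :
    ∃ j : ℕ, Nat.card B = q ^ j ∧ (Nat.card G).factorization q = j + 1 := by
  obtain ⟨_, Sb, Ab, hSb, hAb, _, hcard, ⟨j, hj⟩, hcop⟩ := C.str q b hb
  have hBS : B = Sb := by
    ext u
    rw [hB u, hSb u]
  subst hBS
  refine ⟨j, hj, ?_⟩
  have hq := hb.1
  have hm0 : m ≠ 0 := by have := C.hyp.2.1; omega
  have hn0 : n ≠ 0 := by have := C.hyp.2.2.1; omega
  have hA0 : Nat.card Ab ≠ 0 := Nat.card_pos.ne'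
  have hS0 : Nat.card B ≠ 0 := Nat.card_pos.ne'
  have hfm : m.factorization q = 1 := by
    have h1 : 1 ≤ m.factorization q := (hq.dvd_iff_one_le_factorization hm0).mp hb.2.1
    have h2 : ¬ 2 ≤ m.factorization q := fun h =>
      C.sq q hq hb.2.1 ((hq.pow_dvd_iff_le_factorization hm0).mpr h)
    omega
  have hfn : n.factorization q = 0 := by
    apply Nat.factorization_eq_zero_of_not_dvd
    intro hdn
    have h1 : q ∣ Nat.gcd m n := Nat.dvd_gcd hb.2.1 hdn
    rw [C.hyp.2.2.2.1.gcd_eq_one] at h1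
    exact hq.one_lt.ne' (Nat.dvd_one.mp h1)
  have hfA : (Nat.card Ab).factorization q = 0 := by
    apply Nat.factorization_eq_zero_of_not_dvd
    intro hd
    have h1 : q ∣ Nat.gcd (Nat.card Ab) q := Nat.dvd_gcd hd (dvd_refl q)
    rw [hcop.gcd_eq_one] at h1
    exact hq.one_lt.ne' (Nat.dvd_one.mp h1)
  rw [← hcard, Nat.factorization_mul (mul_ne_zero hS0 hA0) (mul_ne_zero hm0 hn0),
    Nat.factorization_mul hS0 hA0, Nat.factorization_mul hm0 hn0, hj]
  simp [hfm, hfn, hfA, hq.factorization_self]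

/-- a Sylow subgroup containing `S_b`, and an element of it outside `S_b`. -/
theorem sylow [Finite G] (C : TwoCtx G m n) {q : ℕ} {b : G} (hb : PM m q b) (B : Subgroup G)
    (hB : ∀ u : G, u ∈ B ↔ (Commute u b ∧ ∃ k : ℕ, orderOf u = q ^ k)) :
    ∃ Q : Sylow q G, B ≤ Q ∧ Nat.card Q = q * Nat.card B ∧ ∃ g : G, g ∈ Q ∧ g ∉ B := by
  obtain ⟨j, hj, hf⟩ := C.data hb B hB
  have : Fact q.Prime := ⟨hb.1⟩
  obtain ⟨Q, hBQ⟩ := (IsPGroup.of_card hj).exists_le_sylow
  have hQ : Nat.card Q = q * Nat.card B := by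
    rw [Sylow.card_eq_multiplicity, hf, hj, pow_succ, mul_comm]
  refine ⟨Q, hBQ, hQ, ?_⟩
  by_contra hno
  push Not at hno
  have hle : (Q : Subgroup G) ≤ B := fun g hg => hno g hg
  have h1 := Subgroup.card_le_of_le hle
  rw [hQ] at h1
  have h2 : 0 < Nat.card B := Nat.card_pos
  have h3 := hb.1.two_le
  nlinarith

/-- elements of a Sylow `q`-subgroup outside `S_b` are non-central `q`-elements. -/
theorem pm_of_mem [Finite G] (_C : TwoCtx G m n) {q : ℕ} {b : G} (hb : PM m q b) (B : Subgroup G)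
    (hB : ∀ u : G, u ∈ B ↔ (Commute u b ∧ ∃ k : ℕ, orderOf u = q ^ k))
    (Q : Sylow q G) {g : G} (hgQ : g ∈ Q) (hgB : g ∉ B) : PM m q g := by
  have : Fact q.Prime := ⟨hb.1⟩
  have hord : ∃ k : ℕ, orderOf g = q ^ k := by
    obtain ⟨k, hk⟩ := (IsPGroup.iff_orderOf.mp Q.isPGroup') ⟨g, hgQ⟩
    refine ⟨k, ?_⟩
    rw [← hk, ← Subgroup.orderOf_coe]
  refine ⟨hb.1, hb.2.1, hord, ?_⟩
  intro hc
  apply hgB
  rw [hB]
  exact ⟨(Subgroup.mem_center_iff.mp hc b).symm, hord⟩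

/-- the Sylow trick: an element centralized by `S_b` and by an element of `Q \ S_b` is central. -/
theorem inter_central [Finite G] (C : TwoCtx G m n) {q : ℕ} {b : G} (hb : PM m q b)
    (B : Subgroup G) (Q : Sylow q G) (hBQ : B ≤ Q) (hcardQ : Nat.card Q = q * Nat.card B)
    {g : G} (hgQ : g ∈ Q) (hgB : g ∉ B) {u : G} (hu : ∀ β ∈ B, Commute β u)
    (hug : Commute g u) : u ∈ Subgroup.center G := by
  have : Fact q.Prime := ⟨hb.1⟩
  apply two_central_of_sylow C.hyp hb.2.1 Q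
  set K : Subgroup G := (Q : Subgroup G) ⊓ Subgroup.centralizer ({u} : Set G) with hK
  have hBK : B ≤ K := by
    intro β hβ
    rw [hK, Subgroup.mem_inf, Subgroup.mem_centralizer_singleton_iff]
    exact ⟨hBQ hβ, (hu β hβ).eq⟩
  have hgK : g ∈ K := by
    rw [hK, Subgroup.mem_inf, Subgroup.mem_centralizer_singleton_iff]
    exact ⟨hgQ, hug.eq⟩
  have hKQ : K ≤ Q := inf_le_left
  have h1 : Nat.card B ∣ Nat.card K := Subgroup.card_dvd_of_le hBK
  have h2 : Nat.card K ∣ Nat.card Q := Subgroup.card_dvd_of_le hKQ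
  obtain ⟨t, ht⟩ := h1
  have hB0 : 0 < Nat.card B := Nat.card_pos
  have htq : t ∣ q := by
    rw [ht, hcardQ, mul_comm q] at h2
    exact Nat.dvd_of_mul_dvd_mul_left hB0 h2
  rcases (Nat.dvd_prime hb.1).mp htq with h1t | hqt
  · exfalso
    have hBK' : B = K := Subgroup.eq_of_le_of_card_ge hBK (by rw [ht, h1t, mul_one])
    apply hgB
    rw [hBK']
    exact hgK
  · have hKQ' : K = Q := Subgroup.eq_of_le_of_card_ge hKQ (by rw [ht, hqt, hcardQ, mul_comm])
    intro y hy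
    have hyK : y ∈ K := by rw [hKQ']; exact hy
    rw [hK, Subgroup.mem_inf, Subgroup.mem_centralizer_singleton_iff] at hyK
    exact hyK.2

/-- [TWO](2)-(4): `|S_b : S_b ∩ Z(G)| = q`. -/
theorem card_center [Finite G] (C : TwoCtx G m n) {q : ℕ} {b : G} (hb : PM m q b)
    (B : Subgroup G) (hB : ∀ u : G, u ∈ B ↔ (Commute u b ∧ ∃ k : ℕ, orderOf u = q ^ k)) :
    Nat.card B = q * Nat.card ↥(Subgroup.center G ⊓ B) := by
  have : Fact q.Prime := ⟨hb.1⟩
  have hq := hb.1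
  obtain ⟨j, hj, hf⟩ := C.data hb B hB
  obtain ⟨Q, hBQ, hcardQ, g, hgQ, hgB⟩ := C.sylow hb B hB
  have hg : PM m q g := C.pm_of_mem hb B hB Q hgQ hgB
  have habc : AbC b := C.abc hb
  have hidx : idx b = m * n := C.idx_pm hb
  obtain ⟨x, r0, k0, -, -, -, hxb, hxi⟩ := C.stepA b hidx habc
  have hx_nc : x ∉ Subgroup.center G := by
    intro hc
    have h1 := (Cfsg.Agent.Lib.Helper71.CS3.idx_eq_one_iff x).mpr hc
    have h2 : idx x = 1 := h1
    have := C.hyp.2.1
    omega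
  have hBcomm : ∀ {u : G}, Commute u b → ∀ β ∈ B, Commute β u := by
    intro u hu β hβ
    exact habc β u ((hB β).mp hβ).1 hu
  -- (3') no conjugate of `x` centralizes `g`
  have h3 : ∀ k : G, ¬ Commute (k * x * k⁻¹) g := by
    intro k hk
    have hub : Commute (k * x * k⁻¹) b := C.stepB b hidx habc x k hxb hxi
    have hcen : k * x * k⁻¹ ∈ Subgroup.center G :=
      C.inter_central hb B Q hBQ hcardQ hgQ hgB (hBcomm hub) hk.symm
    exact hx_nc (two_conj_mem_center hcen)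
  -- the `q`-part of `C(g)`
  obtain ⟨_, Sg, _, hSg, _, _, _, ⟨jg, hjg⟩, _⟩ := C.str q g hg
  obtain ⟨S', hSgS'⟩ := (IsPGroup.of_card hjg).exists_le_sylow
  obtain ⟨v, hv⟩ := MulAction.exists_smul_eq G Q S'
  have hmemS' : ∀ y : G, y ∈ S' ↔ v⁻¹ * y * v ∈ Q := by
    intro y
    rw [← hv]
    change y ∈ (MulAut.conj v • (Q : Subgroup G)) ↔ _
    rw [Subgroup.mem_pointwise_smul_iff_inv_smul_mem]
    simp only [MulAut.smul_def, MulAut.conj_inv_apply]
    exact Iff.rfl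
  set g2 : G := v⁻¹ * g * v with hg2def
  have hgg2 : g = v * g2 * v⁻¹ := by
    rw [hg2def]; group
  have hg2Q : g2 ∈ Q := by
    rw [hg2def, ← hmemS']
    apply hSgS'
    rw [hSg]
    exact ⟨Commute.refl g, hg.2.2.1⟩
  have hg2B : g2 ∉ B := by
    intro hmem
    have h1 : Commute g2 b := ((hB g2).mp hmem).1
    have h2 : Commute x g2 := habc x g2 hxb h1
    apply h3 v
    rw [hgg2]
    exact (Commute.conj_iff v).mpr h2
  have hg2 : PM m q g2 := C.pm_of_mem hb B hB Q hg2Q hg2B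
  obtain ⟨_, Sg2, _, hSg2, _, _, _, _, _⟩ := C.str q g2 hg2
  obtain ⟨j2, hj2, hf2⟩ := C.data hg2 Sg2 hSg2
  have hSg2Q : Sg2 ≤ Q := by
    intro u hu
    rw [hSg2] at hu
    have h1 : v * u * v⁻¹ ∈ S' := by
      apply hSgS'
      rw [hSg, hgg2]
      refine ⟨(Commute.conj_iff v).mpr hu.1, ?_⟩
      rw [two_orderOf_conj]
      exact hu.2
    rw [hmemS'] at h1
    have h2 : v⁻¹ * (v * u * v⁻¹) * v = u := by group
    rw [h2] at h1
    exact h1
  -- the intersection is central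
  have hT : B ⊓ Sg2 ≤ Subgroup.center G ⊓ B := by
    intro u hu
    rw [Subgroup.mem_inf] at hu
    rw [Subgroup.mem_inf]
    refine ⟨?_, hu.1⟩
    have hub : Commute u b := ((hB u).mp hu.1).1
    have hug2 : Commute u g2 := ((hSg2 u).mp hu.2).1
    exact C.inter_central hb B Q hBQ hcardQ hg2Q hg2B (hBcomm hub) hug2.symm
  -- index computations
  have hj2j : j2 = j := by omega
  have hcardSg2 : Nat.card Sg2 = Nat.card B := by rw [hj2, hj, hj2j]
  have hB0 : 0 < Nat.card B := Nat.card_pos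
  have hq0 : 0 < q := hq.pos
  have hrelB : B.relIndex Q = q := by
    have h1 := two_card_mul_relIndex hBQ
    rw [hcardQ, mul_comm q] at h1
    exact Nat.eq_of_mul_eq_mul_left hB0 h1
  have hrelS : Sg2.relIndex Q = q := by
    have h1 := two_card_mul_relIndex hSg2Q
    rw [hcardQ, hcardSg2, mul_comm q] at h1
    exact Nat.eq_of_mul_eq_mul_left hB0 h1
  have hTQ : B ⊓ Sg2 ≤ Q := inf_le_left.trans hBQ
  have hrelT : (B ⊓ Sg2).relIndex Q ≤ q * q := by
    have h1 := Subgroup.relIndex_inf_le (H := B) (K := Sg2) (L := (Q : Subgroup G))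
    rwa [hrelB, hrelS] at h1
  have hT1 := two_card_mul_relIndex hTQ
  have hle1 : Nat.card ↥(B ⊓ Sg2) ≤ Nat.card ↥(Subgroup.center G ⊓ B) :=
    Subgroup.card_le_of_le hT
  have hz0 : 0 < Nat.card ↥(Subgroup.center G ⊓ B) := Nat.card_pos
  have hupper : Nat.card B ≤ q * Nat.card ↥(Subgroup.center G ⊓ B) := by
    have h1 : q * Nat.card B ≤ Nat.card ↥(B ⊓ Sg2) * (q * q) := by
      rw [← hcardQ, ← hT1]
      exact Nat.mul_le_mul_left _ hrelT
    have h2 : q * Nat.card B ≤ q * (q * Nat.card ↥(Subgroup.center G ⊓ B)) := by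
      calc q * Nat.card B ≤ Nat.card ↥(B ⊓ Sg2) * (q * q) := h1
        _ ≤ Nat.card ↥(Subgroup.center G ⊓ B) * (q * q) := Nat.mul_le_mul_right _ hle1
        _ = q * (q * Nat.card ↥(Subgroup.center G ⊓ B)) := by ring
    exact Nat.le_of_mul_le_mul_left h2 hq0
  have hzdvd : Nat.card ↥(Subgroup.center G ⊓ B) ∣ q ^ j := by
    rw [← hj]
    exact Subgroup.card_dvd_of_le inf_le_right
  obtain ⟨i, hij, hi⟩ := (Nat.dvd_prime_pow hq).mp hzdvd
  have hne : i ≠ j := by
    intro hije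
    have h1 : Subgroup.center G ⊓ B = B :=
      Subgroup.eq_of_le_of_card_ge inf_le_right (by rw [hi, hj, hije])
    have hbB : b ∈ B := by
      rw [hB]
      exact ⟨Commute.refl b, hb.2.2.1⟩
    rw [← h1] at hbB
    exact hb.2.2.2 hbB.1
  have hlower : q * Nat.card ↥(Subgroup.center G ⊓ B) ≤ Nat.card B := by
    rw [hi, hj, ← pow_succ']
    exact Nat.pow_le_pow_right hq0 (by omega)
  exact le_antisymm hupper hlower

/-- [TWO](5): counting the fixed points of an `r`-element acting on `S_b`. -/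
theorem dvd_pred [Finite G] (C : TwoCtx G m n) {s r : ℕ} (hs : s.Prime) (hr : r.Prime)
    (hsm : s ∣ m) (hrm : r ∣ m) (hne : s ≠ r) : r ∣ s - 1 := by
  classical
  have : Fact r.Prime := ⟨hr⟩
  obtain ⟨b, hb, -⟩ := C.syl s hs hsm 1
  obtain ⟨br, hbr, hcomm⟩ := C.syl r hr hrm b
  obtain ⟨_, Bs, _, hBs, _, _, _, _, _⟩ := C.str s b hb
  obtain ⟨_, Br, _, hBr, _, _, _, _, _⟩ := C.str r br hbr
  obtain ⟨js, hjs, -⟩ := C.data hb Bs hBs
  obtain ⟨jr, hjr, hfr⟩ := C.data hbr Br hBr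
  obtain ⟨R, hBrR, hcardR, h, hhR, hhB⟩ := C.sylow hbr Br hBr
  have hh : PM m r h := C.pm_of_mem hbr Br hBr R hhR hhB
  have hcs := C.card_center hb Bs hBs
  -- `Br` is normal in `R`
  have hnormal : (Br.subgroupOf R).Normal := by
    apply Subgroup.normal_of_index_eq_minFac_card
    have h1 : (Br.subgroupOf R).index = r := by
      have h2 := two_card_mul_relIndex hBrR
      rw [hcardR, mul_comm r] at h2
      exact Nat.eq_of_mul_eq_mul_left Nat.card_pos h2
    rw [h1]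
    have h3 : Nat.card (R : Subgroup G) = r ^ (jr + 1) := by
      rw [hcardR, hjr, pow_succ, mul_comm]
    rw [h3, hr.pow_minFac (by omega)]
  have hbrBr : br ∈ Br := by
    rw [hBr]
    exact ⟨Commute.refl br, hbr.2.2.1⟩
  have hconj : h * br * h⁻¹ ∈ Br := by
    have h1 := hnormal.conj_mem ⟨br, hBrR hbrBr⟩
      (by rw [Subgroup.mem_subgroupOf]; exact hbrBr) ⟨h, hhR⟩
    rw [Subgroup.mem_subgroupOf] at h1
    simpa using h1
  have hconjPM : PM m r (h * br * h⁻¹) := by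
    refine ⟨hr, hrm, ?_, ?_⟩
    · rw [two_orderOf_conj]
      exact hbr.2.2.1
    · intro hc
      exact hbr.2.2.2 (two_conj_mem_center hc)
  have hconjc : Commute (h * br * h⁻¹) br := ((hBr _).mp hconj).1
  -- `h` normalizes `C(br)`
  have hnorm : ∀ y : G, Commute y br → Commute (h * y * h⁻¹) br := by
    intro y hy
    have h1 : Commute (h * y * h⁻¹) (h * br * h⁻¹) := (Commute.conj_iff h).mpr hy
    exact (C.comm_iff hconjPM hbr hconjc _).mp h1
  have hbbr : Commute b br := hcomm.symm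
  -- conjugation by `h` on `Bs`
  have hBsconj : ∀ β : G, β ∈ Bs → h * β * h⁻¹ ∈ Bs := by
    intro β hβ
    rw [hBs] at hβ ⊢
    refine ⟨?_, ?_⟩
    · have h1 : Commute β br := (C.comm_iff hb hbr hbbr β).mp hβ.1
      exact (C.comm_iff hb hbr hbbr _).mpr (hnorm β h1)
    · rw [two_orderOf_conj]
      exact hβ.2
  let f : Function.End ↥Bs := fun β => ⟨h * β * h⁻¹, hBsconj β β.2⟩
  have hf1 : ∀ β : ↥Bs, ((f β : ↥Bs) : G) = h * β * h⁻¹ := fun β => rfl
  have hfpow : ∀ (k : ℕ) (β : ↥Bs), (((f ^ k) β : ↥Bs) : G) = h ^ k * β * (h ^ k)⁻¹ := by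
    intro k
    induction k with
    | zero =>
      intro β
      simp [Function.End.one_def]
    | succ k ih =>
      intro β
      rw [pow_succ, Function.End.mul_def]
      change (((f ^ k) (f β) : ↥Bs) : G) = _
      rw [ih, hf1, pow_succ]
      group
  obtain ⟨kh, hkh⟩ := hh.2.2.1
  have hf : f ^ r ^ kh = 1 := by
    funext β
    apply Subtype.ext
    rw [hfpow, ← hkh, pow_orderOf_eq_one]
    simp [Function.End.one_def]
  haveI : Fintype ↥Bs := Fintype.ofFinite _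
  have hmod := Equiv.Perm.card_fixedPoints_modEq (f := f) (p := r) (n := kh) hf
  rw [Fintype.card_eq_nat_card, Fintype.card_eq_nat_card] at hmod
  -- the fixed points are the central elements
  have hfix : ∀ β : ↥Bs, f β = β → (β : G) ∈ Subgroup.center G := by
    intro β hβ
    by_contra hnc
    have hβ' : h * (β : G) * h⁻¹ = β := by
      rw [← hf1, hβ]
    have hβmem := (hBs β).mp β.2
    have hβPM : PM m s (β : G) := ⟨hs, hsm, hβmem.2, hnc⟩
    have hhβ : Commute h (β : G) := by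
      have h1 : h * (β : G) = β * h := by
        have h2 := congrArg (fun t : G => t * h) hβ'
        simpa using h2
      exact h1
    have hhb : Commute h b := (C.comm_iff hβPM hb hβmem.1 h).mp hhβ
    have hhbr : Commute h br := (C.comm_iff hb hbr hbbr h).mp hhb
    apply hhB
    rw [hBr]
    exact ⟨hhbr, hh.2.2.1⟩
  have hfix' : ∀ y : G, y ∈ Subgroup.center G → h * y * h⁻¹ = y := by
    intro y hy
    have h1 := Subgroup.mem_center_iff.mp hy h
    rw [h1, mul_inv_cancel_right]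
  have hcardfix : Nat.card ↥(Function.fixedPoints f) = Nat.card ↥(Subgroup.center G ⊓ Bs) := by
    apply Nat.card_congr
    refine ⟨fun β => ⟨(β.1 : G), ⟨hfix β.1 β.2, β.1.2⟩⟩,
      fun y => ⟨⟨y.1, y.2.2⟩, ?_⟩, ?_, ?_⟩
    · apply Subtype.ext
      exact hfix' y.1 y.2.1
    · intro β
      rfl
    · intro y
      rfl
  rw [hcardfix, hcs] at hmod
  have hz0 : 0 < Nat.card ↥(Subgroup.center G ⊓ Bs) := Nat.card_pos
  have h1 : r ∣ s * Nat.card ↥(Subgroup.center G ⊓ Bs) - Nat.card ↥(Subgroup.center G ⊓ Bs) :=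
    (Nat.modEq_iff_dvd' (by nlinarith [hs.two_le])).mp hmod.symm
  have h2 : s * Nat.card ↥(Subgroup.center G ⊓ Bs) - Nat.card ↥(Subgroup.center G ⊓ Bs)
      = (s - 1) * Nat.card ↥(Subgroup.center G ⊓ Bs) := by
    rw [Nat.sub_mul, one_mul]
  rw [h2] at h1
  have hzdvd : Nat.card ↥(Subgroup.center G ⊓ Bs) ∣ s ^ js := by
    rw [← hjs]
    exact Subgroup.card_dvd_of_le inf_le_right
  have hcop : r.Coprime (Nat.card ↥(Subgroup.center G ⊓ Bs)) :=
    Nat.Coprime.coprime_dvd_right hzdvd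
      (Nat.Coprime.pow_right js ((Nat.coprime_primes hr hs).mpr hne.symm))
  exact hcop.dvd_of_dvd_mul_right h1

end TwoCtx

/-- [TWO] `m` has at most one prime divisor. -/
theorem pkgTwo (hSyl : PkgSyl.{u}) (hStr : PkgStr.{u}) (hSq : PkgSq.{u}) (hAb : PkgAb.{u})
    (hStepA : PkgStepA.{u}) (hStepB : PkgStepB.{u}) : PkgTwo.{u} := by
  intro G _ _ m n hyp hNG s r hs hr hne hsm hrm
  have hex : ∀ q : ℕ, q.Prime → q ∣ m → ∃ q' : ℕ, q'.Prime ∧ q' ∣ m ∧ q' ≠ q := by
    intro q hq hqm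
    by_cases h : q = s
    · exact ⟨r, hr, hrm, by rw [h]; exact hne.symm⟩
    · exact ⟨s, hs, hsm, fun h' => h h'.symm⟩
  have C : TwoCtx G m n :=
    ⟨hyp, hSyl m n hyp, hStr m n hyp hNG, hSq m n hyp hNG, hAb m n hyp hNG,
      hStepA m n hyp hNG, hStepB m n hyp hNG, hex⟩
  have h1 := C.dvd_pred hs hr hsm hrm hne
  have h2 := C.dvd_pred hr hs hrm hsm hne.symm
  have h3 := Nat.le_of_dvd (by have := hs.two_le; omega) h1
  have h4 := Nat.le_of_dvd (by have := hr.two_le; omega) h2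
  omega

end Cfsg.Agent.Lib.Helper51.CS3
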